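import Mathlib
import Cfsg.Agent.H554.RV.Frame
import Cfsg.Agent.H170.RV.Mod
import Cfsg.Agent.H571.RV.Pred

/-!
# `PSL_n(q)`, `PSU_n(q)` with `2, 3 ∈ π`, `p ∉ π`, `p ≥ 5` : not `DB` (matrix part) (helper554, TEAM RV)

`not_DB_of` : a group `G` of `n × n` matrices, `n ≥ 3`, which contains the block matrices of a Hurwitz quaternion group
and of an alternating group of degree four, such that the automorphisms of `G / Z(G)` act on the latter by conjugation
with matrices. Then `G / Z(G)` does not satisfy `DB π` if `2, 3 ∈ π`, `p ∉ π`.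
-/

set_option autoImplicit false

namespace Cfsg.Agent.H554.RV

open Matrix Cfsg Cfsg.Agent.H988.CPi Cfsg.Agent.H571.DExt Cfsg.Agent.H571.RV

section Blk

variable {F : Type*} [Field F] {n m : ℕ}

variable (F) in
/-- the inclusion of the coordinates `e` -/
def Em (e : Fin m → Fin n) : Matrix (Fin n) (Fin m) F := (1 : Matrix (Fin n) (Fin n) F).submatrix id e

variable (F) in
/-- the restriction to the coordinates `e` -/
def Rm (e : Fin m → Fin n) : Matrix (Fin m) (Fin n) F := (1 : Matrix (Fin n) (Fin n) F).submatrix e id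

theorem Rm_mul_Em {m' : ℕ} (e : Fin m → Fin n) (e' : Fin m' → Fin n) :
    (Rm F e * Em F e' : Matrix (Fin m) (Fin m') F) = (1 : Matrix (Fin n) (Fin n) F).submatrix e e' := by
  have h := Matrix.submatrix_mul_equiv (1 : Matrix (Fin n) (Fin n) F) (1 : Matrix (Fin n) (Fin n) F) e
    (Equiv.refl (Fin n)) e'
  rw [Matrix.one_mul] at h
  exact h

theorem RE_one {e : Fin m → Fin n} (he : Function.Injective e) : (Rm F e * Em F e : Matrix (Fin m) (Fin m) F) = 1 := by
  rw [Rm_mul_Em]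
  ext i j
  rw [submatrix_apply, one_apply, one_apply]
  by_cases h : i = j
  · rw [if_pos h, if_pos (congrArg e h)]
  · rw [if_neg h, if_neg (fun h' => h (he h'))]

theorem RE_zero {m' : ℕ} {e : Fin m → Fin n} {e' : Fin m' → Fin n} (he : ∀ i j, e i ≠ e' j) :
    (Rm F e * Em F e' : Matrix (Fin m) (Fin m') F) = 0 := by
  rw [Rm_mul_Em]
  ext i j
  rw [submatrix_apply, one_apply, if_neg (he i j), Matrix.zero_apply]

/-- the block matrix -/
def bm (e : Fin m → Fin n) (A : Matrix (Fin m) (Fin m) F) : Matrix (Fin n) (Fin n) F := 1 + Em F e * (A - 1) * Rm F e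

theorem bm_mul {e : Fin m → Fin n} (he : Function.Injective e) (A B : Matrix (Fin m) (Fin m) F) :
    bm e A * bm e B = bm e (A * B) := by
  have h1 : Em F e * (A - 1) * Rm F e * (Em F e * (B - 1) * Rm F e) = Em F e * ((A - 1) * (B - 1)) * Rm F e := by
    calc Em F e * (A - 1) * Rm F e * (Em F e * (B - 1) * Rm F e)
        = Em F e * (A - 1) * (Rm F e * Em F e) * (B - 1) * Rm F e := by simp only [Matrix.mul_assoc]
      _ = _ := by rw [RE_one he, Matrix.mul_one]; simp only [Matrix.mul_assoc]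
  rw [bm, bm, bm, add_mul, mul_add, mul_add, h1]
  simp only [Matrix.one_mul, Matrix.mul_one]
  have h2 : (A - 1) * (B - 1) = (A * B - 1) - (A - 1) - (B - 1) := by noncomm_ring
  have h3 : Em F e * ((A - 1) * (B - 1)) * Rm F e =
      Em F e * (A * B - 1) * Rm F e - Em F e * (A - 1) * Rm F e - Em F e * (B - 1) * Rm F e := by
    rw [h2, Matrix.mul_sub (Em F e) (A * B - 1 - (A - 1)) (B - 1), Matrix.mul_sub (Em F e) (A * B - 1) (A - 1),
      Matrix.sub_mul, Matrix.sub_mul]
  rw [h3]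
  abel

theorem bm_one (e : Fin m → Fin n) : bm e (1 : Matrix (Fin m) (Fin m) F) = 1 := by
  rw [bm, sub_self, Matrix.mul_zero, Matrix.zero_mul, add_zero]

theorem det_bm {e : Fin m → Fin n} (he : Function.Injective e) (A : Matrix (Fin m) (Fin m) F) :
    (bm e A).det = A.det := by
  rw [bm, Matrix.mul_assoc, Matrix.det_one_add_mul_comm, Matrix.mul_assoc, RE_one he, Matrix.mul_one,
    add_sub_cancel]

theorem bm_comm {m' : ℕ} {e : Fin m → Fin n} {e' : Fin m' → Fin n} (he : ∀ i j, e i ≠ e' j)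
    (A : Matrix (Fin m) (Fin m) F) (B : Matrix (Fin m') (Fin m') F) : bm e A * bm e' B = bm e' B * bm e A := by
  have h1 : Em F e * (A - 1) * Rm F e * (Em F e' * (B - 1) * Rm F e') = 0 := by
    calc Em F e * (A - 1) * Rm F e * (Em F e' * (B - 1) * Rm F e')
        = Em F e * (A - 1) * (Rm F e * Em F e') * ((B - 1) * Rm F e') := by simp only [Matrix.mul_assoc]
      _ = 0 := by rw [RE_zero he, Matrix.mul_zero, Matrix.zero_mul]
  have h2 : Em F e' * (B - 1) * Rm F e' * (Em F e * (A - 1) * Rm F e) = 0 := by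
    calc Em F e' * (B - 1) * Rm F e' * (Em F e * (A - 1) * Rm F e)
        = Em F e' * (B - 1) * (Rm F e' * Em F e) * ((A - 1) * Rm F e) := by simp only [Matrix.mul_assoc]
      _ = 0 := by rw [RE_zero (fun i j h => he j i h.symm), Matrix.mul_zero, Matrix.zero_mul]
  rw [bm, bm, add_mul, mul_add, mul_add, add_mul, mul_add, mul_add, h1, h2]
  simp only [Matrix.one_mul, Matrix.mul_one]
  abel

theorem toLin_bm {e : Fin m → Fin n} (A : Matrix (Fin m) (Fin m) F) :
    toLin' (bm e A) = blk (toLin' (Em F e)) (toLin' (Rm F e)) (toLin' A) := by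
  rw [bm, blk, map_add, Matrix.mul_assoc, toLin'_mul, toLin'_mul, map_sub, toLin'_one, toLin'_one]
  rfl

theorem toLin_conj {e : Fin m → Fin n} (A : Matrix (Fin m) (Fin m) F) {C D : Matrix (Fin n) (Fin n) F}
    (hCD : C * D = 1) :
    toLin' (C * bm e A * D) = blk (toLin' (C * Em F e)) (toLin' (Rm F e * D)) (toLin' A) := by
  have h1 : C * bm e A * D = 1 + C * Em F e * ((A - 1) * (Rm F e * D)) := by
    rw [bm, mul_add, add_mul, Matrix.mul_one, hCD]
    simp only [Matrix.mul_assoc]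
  rw [h1, blk, map_add, toLin'_mul (C * Em F e) ((A - 1) * (Rm F e * D)), toLin'_mul (A - 1) (Rm F e * D), map_sub,
    toLin'_one, toLin'_one]
  rfl

end Blk

section Groups

variable {G : Type*} [Group G] {π : Set ℕ}

theorem piN_pow {x : G} {a b : ℕ} (h2 : 2 ∈ π) (h3 : 3 ∈ π) (h : x ^ (2 ^ a * 3 ^ b) = 1) :
    PiN π (Nat.card (Subgroup.zpowers x)) := by
  rw [Nat.card_zpowers]
  intro q hq hd
  have h4 : q ∣ 2 ^ a * 3 ^ b := hd.trans (orderOf_dvd_of_pow_eq_one h)
  rcases (Nat.Prime.dvd_mul hq).mp h4 with h5 | h5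
  · rw [(Nat.prime_dvd_prime_iff_eq hq Nat.prime_two).mp (hq.dvd_of_dvd_pow h5)]; exact h2
  · rw [(Nat.prime_dvd_prime_iff_eq hq Nat.prime_three).mp (hq.dvd_of_dvd_pow h5)]; exact h3

theorem mem_norm_of [Finite G] {g : G} {A : Subgroup G} (h : ∀ x ∈ A, g * x * g⁻¹ ∈ A) :
    g ∈ Subgroup.normalizer (A : Set G) := by
  rw [Subgroup.mem_normalizer_iff_map_conj_eq]
  have h1 : A.map ((MulAut.conj g : MulAut G) : G →* G) ≤ A := by
    rintro _ ⟨x, hx, rfl⟩
    exact h x hx
  refine Subgroup.eq_of_le_of_card_ge h1 ?_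
  rw [Subgroup.card_map_of_injective (MulAut.conj g).injective]

theorem zpowers_le_normalizer {x y : G} [Finite G] {A : Subgroup G} (hA : A = Subgroup.zpowers x)
    (h : y * x * y⁻¹ ∈ A) : Subgroup.zpowers y ≤ Subgroup.normalizer (A : Set G) := by
  rw [Subgroup.zpowers_le]
  subst hA
  refine mem_norm_of ?_
  intro a ha
  obtain ⟨k, rfl⟩ := Subgroup.mem_zpowers_iff.mp ha
  rw [← conj_zpow]
  exact Subgroup.zpow_mem _ h k

theorem le_norm_sup [Finite G] {g x y : G} {A : Subgroup G} (hA : A = Subgroup.zpowers y ⊔ Subgroup.zpowers x)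
    (hx : g * x * g⁻¹ ∈ A) (hy : g * y * g⁻¹ ∈ A) : Subgroup.zpowers g ≤ Subgroup.normalizer (A : Set G) := by
  rw [Subgroup.zpowers_le]
  have h1 : A ≤ A.comap (MulAut.conj g).toMonoidHom := by
    nth_rewrite 1 [hA]
    exact sup_le (Subgroup.zpowers_le.mpr hy) (Subgroup.zpowers_le.mpr hx)
  exact mem_norm_of fun a ha => h1 ha

/-- a group with the relations of `SL_2(3)` -/
theorem piN_quat [Finite G] {x y b : G} (h2 : 2 ∈ π) (h3 : 3 ∈ π) (hx : x ^ 4 = 1) (hy : y ^ 4 = 1) (hb : b ^ 6 = 1)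
    (hyx : y * x * y⁻¹ = x⁻¹) (hbx : b * x * b⁻¹ = y) (hby : b * y * b⁻¹ = x * y) :
    PiN π (Nat.card (Subgroup.zpowers b ⊔ (Subgroup.zpowers y ⊔ Subgroup.zpowers x) : Subgroup G)) := by
  have e1 : x ∈ Subgroup.zpowers y ⊔ Subgroup.zpowers x :=
    (le_sup_right : _ ≤ Subgroup.zpowers y ⊔ Subgroup.zpowers x) (Subgroup.mem_zpowers x)
  have e2 : y ∈ Subgroup.zpowers y ⊔ Subgroup.zpowers x :=
    (le_sup_left : _ ≤ Subgroup.zpowers y ⊔ Subgroup.zpowers x) (Subgroup.mem_zpowers y)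
  refine piN_sup (le_norm_sup rfl (by rw [hbx]; exact e2) (by rw [hby]; exact mul_mem e1 e2)) ?_ (piN_sup ?_ ?_ ?_)
  · exact piN_pow (a := 1) (b := 1) h2 h3 (by simpa using hb)
  · exact zpowers_le_normalizer rfl (by rw [hyx]; exact inv_mem (Subgroup.mem_zpowers x))
  · exact piN_pow (a := 2) (b := 0) h2 h3 (by simpa using hy)
  · exact piN_pow (a := 2) (b := 0) h2 h3 (by simpa using hx)

/-- the relations of `A_4` -/
theorem piN_alt [Finite G] {t y : G} (h2 : 2 ∈ π) (h3 : 3 ∈ π) (ht : t ^ 2 = 1) (hy : y ^ 3 = 1)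
    (hc : y * t * y⁻¹ * t = t * (y * t * y⁻¹)) (hp : y * (y * t * y⁻¹) * y⁻¹ = t * (y * t * y⁻¹)) :
    PiN π (Nat.card (Subgroup.zpowers y ⊔ (Subgroup.zpowers (y * t * y⁻¹) ⊔ Subgroup.zpowers t) : Subgroup G)) := by
  set u := y * t * y⁻¹ with hu
  have e1 : t ∈ Subgroup.zpowers u ⊔ Subgroup.zpowers t :=
    (le_sup_right : _ ≤ Subgroup.zpowers u ⊔ Subgroup.zpowers t) (Subgroup.mem_zpowers t)
  have e2 : u ∈ Subgroup.zpowers u ⊔ Subgroup.zpowers t :=
    (le_sup_left : _ ≤ Subgroup.zpowers u ⊔ Subgroup.zpowers t) (Subgroup.mem_zpowers u)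
  refine piN_sup (le_norm_sup rfl (by rw [← hu]; exact e2) (by rw [hp]; exact mul_mem e1 e2)) ?_ (piN_sup ?_ ?_ ?_)
  · exact piN_pow (a := 0) (b := 1) h2 h3 (by simpa using hy)
  · exact zpowers_le_normalizer rfl (by rw [hc, mul_inv_cancel_right]; exact Subgroup.mem_zpowers t)
  · exact piN_pow (a := 1) (b := 0) h2 h3 (by
      rw [pow_one, pow_zero, mul_one, hu, conj_pow, ht, mul_one, mul_inv_cancel])
  · exact piN_pow (a := 1) (b := 0) h2 h3 (by simpa using ht)

/-- a product of commuting `π`-subgroups -/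
theorem piN_iSup [Finite G] {ι : Type*} [Finite ι] (Y : ι → Subgroup G) (hY : ∀ i, PiN π (Nat.card (Y i)))
    (hc : ∀ i j, i ≠ j → ∀ a ∈ Y i, ∀ b ∈ Y j, a * b = b * a) : PiN π (Nat.card (⨆ i, Y i : Subgroup G)) := by
  classical
  have := Fintype.ofFinite ι
  have key : ∀ s : Finset ι, PiN π (Nat.card (⨆ i ∈ s, Y i : Subgroup G)) := by
    intro s
    induction s using Finset.induction_on with
    | empty =>
      simp only [Finset.notMem_empty, iSup_false, iSup_bot, Subgroup.card_bot]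
      intro p hp hd
      exact absurd (Nat.dvd_one.mp hd) hp.one_lt.ne'
    | insert j s hj ih =>
      rw [Finset.iSup_insert]
      refine piN_sup ?_ (hY j) ih
      refine le_trans ?_ (Subgroup.centralizer_le_normalizer _)
      intro a ha
      rw [Subgroup.mem_centralizer_iff]
      have h1 : (⨆ i ∈ s, Y i : Subgroup G) ≤ Subgroup.centralizer {a} := by
        refine iSup₂_le fun i hi b hb => ?_
        rw [Subgroup.mem_centralizer_iff]
        intro c hc'
        rw [Set.mem_singleton_iff.mp hc']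
        exact hc j i (fun h => hj (h ▸ hi)) a ha b hb
      intro b hb
      have h2 := h1 hb
      rw [Subgroup.mem_centralizer_iff] at h2
      exact (h2 a rfl).symm
  have h1 := key Finset.univ
  simpa using h1

end Groups

end Cfsg.Agent.H554.RV
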